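import Cfsg.Agent.H894.PQ.Hecke
import Cfsg.Agent.H706.PB.Defs
import Cfsg.Agent.H769.PB.Real
import Cfsg.Agent.H145.BR.Count

/-!
# Multiplicity free permutation characters and the principal block (helper622, S4884)

* `ncard_mul` : the intersection numbers of the orbital of `(a, n • a)`, `n * n = 1`, from the numbers of points of
  type `i` mapped by `n` to points of type `j`;
* `exists_dec` : the permutation character is the sum of irreducible characters `χ t` of the different degrees `d t`;
* `b0_sum` : the sum of the degrees of the `χ t` in `B₀(p)` is `0` modulo `p`, if `p` divides the degree of the action;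
* `rowReal_of_dec` : the row.
-/

set_option autoImplicit false
set_option linter.unusedSectionVars false

open Cfsg

namespace Cfsg.Agent.H622.PB.Abs

open Cfsg.Agent.Blocks.Blau Cfsg.Agent.H593.IMFrame Cfsg.Agent.H145.BR
open scoped ComplexConjugate
open Cfsg.Agent.Characters.Core (isIrr_isCharacter finite_irr isIrr_isClassFunction isIrr_apply_one_ne_zero
  classInner_sum_nsmul_irr classInner_irr_ne classInner_irr_self classInner_sum_left)

universe u

variable {G : Type u} [Group G] {X : Type u} [MulAction G X] {r : ℕ} {a : X} {b : Fin r → X} {k : Fin r → ℕ}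

section num

open scoped Classical in
/-- the indicator of an orbital -/
noncomputable def rc (G : Type u) [Group G] {X : Type u} [MulAction G X] (a b x y : X) : ℂ :=
  if Rel G a b x y then 1 else 0

theorem rel_smul (a b : X) (g : G) (x y : X) : Rel G a b (g • x) (g • y) ↔ Rel G a b x y := by
  constructor
  · intro h
    have h1 := h.smul g⁻¹
    rwa [inv_smul_smul, inv_smul_smul] at h1
  · exact fun h => h.smul g

theorem rc_pos {a b x y : X} (h : Rel G a b x y) : rc G a b x y = 1 := by
  unfold rc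
  rw [if_pos h]

theorem rc_neg {a b x y : X} (h : ¬ Rel G a b x y) : rc G a b x y = 0 := by
  unfold rc
  rw [if_neg h]

theorem rc_smul (a b : X) (g : G) (x y : X) : rc G a b (g • x) (g • y) = rc G a b x y := by
  by_cases h1 : Rel G a b x y
  · rw [rc_pos h1, rc_pos ((rel_smul a b g x y).2 h1)]
  · rw [rc_neg h1, rc_neg (fun h2 => h1 ((rel_smul a b g x y).1 h2))]

theorem sum_smul [Fintype X] (g : G) (f : X → ℂ) : ∑ z : X, f (g • z) = ∑ z : X, f z :=
  Fintype.sum_equiv (MulAction.toPerm g) _ _ fun _ => rfl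

open scoped Classical in
theorem sum_ind [Fintype X] (P Q : X → Prop) : ∑ z : X, (if P z then (1 : ℂ) else 0) * (if Q z then (1 : ℂ) else 0) =
    ({z | P z ∧ Q z}.ncard : ℂ) := by
  rw [Set.ncard_eq_toFinset_card', Set.toFinset_ofPred, ← Finset.sum_boole]
  refine Finset.sum_congr rfl fun z _ => ?_
  by_cases h1 : P z <;> by_cases h2 : Q z <;> simp [h1, h2]

/-- **intersection numbers** -/
theorem ncard_mul [Fintype X] (h : Sub G X a b k) {n : G} (hn : n * n = 1) {s : Fin r} (hs : n • a = b s) (i j : Fin r) :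
    k i * {y | Rel G a (b s) (b i) y ∧ Rel G a (b j) a y}.ncard =
      k s * {z | Rel G a (b i) a z ∧ Rel G a (b j) a (n • z)}.ncard := by
  classical
  have e1 := h.sum_invariant (fun x y => rc G a (b i) x y * ∑ z, rc G a (b s) y z * rc G a (b j) x z) (fun g x y => by
    show rc G a (b i) (g • x) (g • y) * ∑ z, rc G a (b s) (g • y) z * rc G a (b j) (g • x) z = _
    rw [rc_smul, ← sum_smul g (fun z => rc G a (b s) (g • y) z * rc G a (b j) (g • x) z)]
    simp only [rc_smul])
  have e2 := h.sum_invariant (fun y z => rc G a (b s) y z * ∑ x, rc G a (b i) x y * rc G a (b j) x z) (fun g y z => by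
    show rc G a (b s) (g • y) (g • z) * ∑ x, rc G a (b i) x (g • y) * rc G a (b j) x (g • z) = _
    rw [rc_smul, ← sum_smul g (fun x => rc G a (b i) x (g • y) * rc G a (b j) x (g • z))]
    simp only [rc_smul])
  have e3 : ∑ x : X, ∑ y : X, rc G a (b i) x y * ∑ z, rc G a (b s) y z * rc G a (b j) x z =
      ∑ y : X, ∑ z : X, rc G a (b s) y z * ∑ x, rc G a (b i) x y * rc G a (b j) x z := by
    simp only [Finset.mul_sum]
    rw [Finset.sum_comm]
    refine Finset.sum_congr rfl fun y _ => ?_
    rw [Finset.sum_comm]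
    refine Finset.sum_congr rfl fun z _ => Finset.sum_congr rfl fun x _ => ?_
    ring
  have hself : ∀ i, Rel G a (b i) a (b i) := fun i => ⟨1, one_smul _ _, one_smul _ _⟩
  rw [Finset.sum_eq_single i] at e1
  · rw [Finset.sum_eq_single s] at e2
    · rw [e1, e2] at e3
      simp only [rc_pos (hself i), rc_pos (hself s), one_mul] at e3
      have h1 : ∑ z, rc G a (b s) (b i) z * rc G a (b j) a z =
          ({y | Rel G a (b s) (b i) y ∧ Rel G a (b j) a y}.ncard : ℂ) := sum_ind _ _
      have h2 : ∑ x, rc G a (b i) x a * rc G a (b j) x (b s) =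
          ({z | Rel G a (b i) a z ∧ Rel G a (b j) a (n • z)}.ncard : ℂ) := by
        rw [← sum_ind]
        refine Finset.sum_congr rfl fun z _ => ?_
        have h3 : Rel G a (b i) z a ↔ Rel G a (b i) a z := ⟨fun h4 => h.symm h4, fun h4 => h.symm h4⟩
        have h4 : Rel G a (b j) z (b s) ↔ Rel G a (b j) a (n • z) := by
          rw [← rel_smul a (b j) n z (b s), ← hs, ← mul_smul, hn, one_smul]
          exact ⟨fun h4 => h.symm h4, fun h4 => h.symm h4⟩
        unfold rc
        simp only [h3, h4]
      rw [h1, h2] at e3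
      have h5 : (Nat.card X : ℂ) ≠ 0 := by
        exact_mod_cast h.card_pos.ne'
      have h6 : (Nat.card X : ℂ) * ((k i * {y | Rel G a (b s) (b i) y ∧ Rel G a (b j) a y}.ncard : ℕ) : ℂ) =
          (Nat.card X : ℂ) * ((k s * {z | Rel G a (b i) a z ∧ Rel G a (b j) a (n • z)}.ncard : ℕ) : ℂ) := by
        push_cast at e3 ⊢
        rw [← mul_assoc, ← mul_assoc]
        exact e3
      exact_mod_cast mul_left_cancel₀ h5 h6
    · intro i' _ hne
      rw [rc_neg (fun hh => hne (h.rel_unique (hself i') hh)), zero_mul, mul_zero]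
    · intro hh
      exact absurd (Finset.mem_univ _) hh
  · intro i' _ hne
    rw [rc_neg (fun hh => hne (h.rel_unique (hself i') hh)), zero_mul, mul_zero]
  · intro hh
    exact absurd (Finset.mem_univ _) hh

end num

section dec

variable [Fintype G] [Fintype X]

/-- a spherical function belongs to a constituent -/
theorem inner_ne_of_sph (h : Sub G X a b k) {i0 : Fin r} (hi0 : b i0 = a) {χ : IrrCharacter G} {V : Fin r → ℚ}
    (hV0 : V i0 ≠ 0) (hV : Cfsg.Agent.H894.PQ.Hecke.IsSph G a b χ V) : classInner (perm G X) (χ : G → ℂ) ≠ 0 := by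
  classical
  intro h0
  have e1 := E_trace (X := X) χ
  rw [h0, mul_zero] at e1
  have h1 : ∀ x : X, E (χ : G → ℂ) x x = E (χ : G → ℂ) a a := by
    intro x
    have := h.trans
    obtain ⟨g, rfl⟩ := MulAction.exists_smul_eq G a x
    exact E_smul (isIrr_isClassFunction χ.2) g a a
  rw [Finset.sum_congr rfl fun x _ => h1 x, Finset.sum_const, nsmul_eq_mul] at e1
  have h2 := hV i0
  rw [hi0] at h2
  have hX : (Nat.card X : ℂ) ≠ 0 := by exact_mod_cast h.card_pos.ne'
  have hd : (charDegree (χ : G → ℂ) : ℂ) ≠ 0 := by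
    rw [charDegree_eq χ.2]
    exact isIrr_apply_one_ne_zero χ.2
  have hV1 : ((V i0 : ℚ) : ℂ) ≠ 0 := by exact_mod_cast hV0
  rw [mul_eq_zero, h2] at e1
  rcases e1 with e1 | e1
  · rw [Finset.card_univ, ← Nat.card_eq_fintype_card] at e1
    exact hX e1
  · exact mul_ne_zero hV1 (div_ne_zero hd hX) e1

/-- the decomposition -/
theorem exists_dec (h : Sub G X a b k) (d : Fin r → ℕ) (hd : Function.Injective d)
    (hex : ∀ t, ∃ χ : IrrCharacter G, charDegree (χ : G → ℂ) = d t ∧ classInner (perm G X) (χ : G → ℂ) ≠ 0) :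
    ∃ χ : Fin r → IrrCharacter G, (∀ t, charDegree (χ t : G → ℂ) = d t) ∧ Function.Injective χ ∧
      ∀ g, perm G X g = ∑ t, (χ t : G → ℂ) g := by
  classical
  obtain ⟨χ', D, hinj, hperm, -, -, -⟩ := frame h
  have hperm' : perm G X = ∑ i, (χ' i : G → ℂ) := by
    funext g
    rw [hperm, Finset.sum_apply]
  have hcon : ∀ η : G → ℂ, IsIrrCharacter G η → classInner (perm G X) η ≠ 0 → ∃ i, (χ' i : G → ℂ) = η := by
    intro η hη h0
    by_contra hcon
    push Not at hcon
    apply h0
    rw [hperm', classInner_sum_left, Finset.sum_eq_zero]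
    intro i _
    exact classInner_irr_ne (χ' i).2 hη (hcon i)
  have h1 : ∀ t, ∃ i, charDegree (χ' i : G → ℂ) = d t := by
    intro t
    obtain ⟨χ, h2, h3⟩ := hex t
    obtain ⟨i, hi⟩ := hcon χ χ.2 h3
    exact ⟨i, by rw [hi, h2]⟩
  choose σ hσ using h1
  have hσi : Function.Injective σ := fun t t' htt => hd (by rw [← hσ t, ← hσ t', htt])
  have hσb : Function.Bijective σ := Finite.injective_iff_bijective.1 hσi
  refine ⟨fun t => χ' (σ t), hσ, hinj.comp hσi, fun g => ?_⟩
  rw [hperm]
  exact (Fintype.sum_bijective σ hσb _ _ fun t => rfl).symm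

variable {p : ℕ} [hp : Fact p.Prime] {M : Ideal AlgInt}

open scoped Classical in
/-- **the degrees of the constituents in the principal block** -/
theorem b0_sum (hM : IsPModular p M) (x : X) [MulAction.IsPretransitive G X] (hX : p ∣ Nat.card X)
    {χ : Fin r → IrrCharacter G} (hinj : Function.Injective χ) (hperm : ∀ g, perm G X g = ∑ t, (χ t : G → ℂ) g) :
    (∑ t, if χ t ∈ principalBlock M G then (charDegree (χ t : G → ℂ) : ℤ) else 0) ≡ 0 [ZMOD p] := by
  have hfin := finite_irr (G := G)
  have := Fintype.ofFinite (IrrCharacter G)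
  have h1 := sum_modEq_of_reg hM (perm G X) (fun ψ => if ∃ t, χ t = ψ then 1 else 0) (fun g => by
    rw [hperm]
    simp only [Int.cast_ite, Int.cast_one, Int.cast_zero, ite_mul, one_mul, zero_mul]
    rw [← Finset.sum_filter]
    have h2 : Finset.univ.filter (fun ψ => ∃ t, χ t = ψ) = Finset.univ.image χ := by
      ext ψ
      simp
    rw [h2, Finset.sum_image fun t _ t' _ htt => hinj htt])
    ((Nat.card X * H116.RatB0.reg p (MulAction.stabilizer G x) : ℕ) : ℤ) (by
      rw [Int.cast_natCast]
      exact H493.RatB.sum_regPart_permC x p)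
  have h2 : (((Nat.card X * H116.RatB0.reg p (MulAction.stabilizer G x) : ℕ) : ℤ)) ≡ 0 [ZMOD p] := by
    rw [Int.modEq_zero_iff_dvd, Int.natCast_dvd_natCast]
    exact hX.mul_right _
  have h3 := h1.trans h2
  have h4 : (∑ ψ : IrrCharacter G, if ψ ∈ principalBlock M G then
      (if ∃ t, χ t = ψ then (1 : ℤ) else 0) * (charDegree (ψ : G → ℂ) : ℤ) else 0) =
      ∑ t, if χ t ∈ principalBlock M G then (charDegree (χ t : G → ℂ) : ℤ) else 0 := by
    have h5 : ∀ ψ : IrrCharacter G, (if ψ ∈ principalBlock M G then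
      (if ∃ t, χ t = ψ then (1 : ℤ) else 0) * (charDegree (ψ : G → ℂ) : ℤ) else 0) =
        if ∃ t, χ t = ψ then (if ψ ∈ principalBlock M G then (charDegree (ψ : G → ℂ) : ℤ) else 0) else 0 := by
      intro ψ
      split_ifs <;> simp
    rw [Finset.sum_congr rfl fun ψ _ => h5 ψ, ← Finset.sum_filter]
    have h2 : Finset.univ.filter (fun ψ => ∃ t, χ t = ψ) = Finset.univ.image χ := by
      ext ψ
      simp
    rw [h2, Finset.sum_image fun t _ t' _ htt => hinj htt]
  rw [h4, Int.modEq_zero_iff_dvd] at h3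
  rw [Int.modEq_zero_iff_dvd]
  have hpz : Prime (p : ℤ) := Nat.prime_iff_prime_int.1 hp.out
  refine (hpz.dvd_or_dvd h3).resolve_right fun h5 => ?_
  exact Cfsg.Agent.Blocks.RegularCount.not_dvd_card_regular (G := G) (p := p) (by exact_mod_cast h5)

/-- **the row** from a decomposition of a permutation character of degree divisible by `p` -/
theorem rowReal_of_dec (h : Sub G X a b k) (hX : p ∣ Nat.card X) {d : Fin r → ℕ} (hd : Function.Injective d)
    {χ : Fin r → IrrCharacter G} (hdeg : ∀ t, charDegree (χ t : G → ℂ) = d t) (hinj : Function.Injective χ)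
    (hperm : ∀ g, perm G X g = ∑ t, (χ t : G → ℂ) g)
    (hsel : ∀ S : Fin r → Bool, (∀ t, d t = 1 → S t = true) → (∑ t, if S t then (d t : ℤ) else 0) ≡ 0 [ZMOD p] →
      ∃ t, S t = true ∧ d t ≠ 1 ∧ ¬ 2 ∣ d t ∧ ¬ p ∣ d t) : H706.PB.RowReal p G := by
  classical
  intro M hM
  have := h.trans
  have hMp : M.IsPrime := Blocks.Local.isPrime_of_isPModular hM
  have h1 := b0_sum (G := G) hM a hX hinj hperm
  have hperm' : perm G X = ∑ i, (χ i : G → ℂ) := by
    funext g
    rw [hperm, Finset.sum_apply]
  have hcon : ∀ η : G → ℂ, IsIrrCharacter G η → classInner (perm G X) η ≠ 0 → ∃ i, (χ i : G → ℂ) = η := by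
    intro η hη h0
    by_contra hcon
    push Not at hcon
    apply h0
    rw [hperm', classInner_sum_left, Finset.sum_eq_zero]
    intro i _
    exact classInner_irr_ne (χ i).2 hη (hcon i)
  have hself : ∀ t, classInner (perm G X) (χ t : G → ℂ) ≠ 0 := by
    intro u
    rw [hperm', classInner_sum_left, Finset.sum_eq_single u]
    · rw [classInner_irr_self (χ u).2]
      norm_num
    · intro v _ hv
      exact classInner_irr_ne (χ v).2 (χ u).2 (fun h => hv (hinj (Subtype.ext h)))
    · intro h
      exact absurd (Finset.mem_univ _) h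
  have hone : ∀ t, d t = 1 → χ t ∈ principalBlock M G := by
    intro t ht
    -- the trivial character is a constituent
    have h2 : classInner (perm G X) (fun _ : G => (1 : ℂ)) = 1 := by
      have hne : Nonempty X := ⟨a⟩
      exact H493.RatB.permC_pair (G := G) (X := X)
    obtain ⟨u, hu⟩ := hcon (fun _ => 1) (H893.Sd.one G).2 (by rw [h2]; norm_num)
    have h3 : d u = 1 := by
      rw [← hdeg, hu]
      exact Blocks.Basic.charDegree_of_eq (by rw [Nat.cast_one])
    have h4 : t = u := hd (by rw [ht, h3])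
    rw [h4]
    have h5 : χ u = H893.Sd.one G := Subtype.ext hu
    rw [h5]
    exact Blocks.PrincipalSection.one_mem_principalBlock
  obtain ⟨t, h2, h3, h4, h5⟩ := hsel (fun t => decide (χ t ∈ principalBlock M G)) (fun t ht => decide_eq_true (hone t ht))
    (by
      simp only [decide_eq_true_eq]
      simp only [hdeg] at h1
      exact h1)
  refine ⟨χ t, of_decide_eq_true h2, fun h6 => h3 ?_, by rwa [hdeg], by rwa [hdeg], ?_⟩
  · rw [← hdeg, h6]
    exact Blocks.Basic.charDegree_of_eq (by rw [Nat.cast_one])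
  · refine H769.PB.real_of_unique (W := perm G X) conj_perm (hself t) fun ψ h6 h7 => ?_
    obtain ⟨u, hu⟩ := hcon ψ ψ.2 h6
    have h8 : u = t := hd (by rw [← hdeg, ← hdeg, hu, h7])
    rw [← h8]
    exact Subtype.ext hu.symm

end dec

end Cfsg.Agent.H622.PB.Abs
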