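import Cfsg.Agent.FourTwo.CentAll
import Cfsg.Agent.FourTwo.Facts2
import Cfsg.Agent.FourTwo.AutF4

/-!
# `F₄(2)`: the `U`-orbits on the 69615 short root elements (helper622)

`UO r g` : `g` is conjugate to `x r` under `U`. For the 24 short roots `r` these are disjoint sets of `2 ^ l r` elements
(`card_UO`, `UO_unique`), `l r` = number of positive roots `b` with `(b, r) < 0`; `nU_ge`, `nU_lt` : the action of `n i`.
-/

set_option autoImplicit false
set_option maxRecDepth 100000

namespace Cfsg.Agent.H622.PB.Pts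

open Cfsg.Lie Cfsg.Agent.ChevalleyStructure.TwF4.Rel Cfsg.Agent.ChevalleyStructure.TwF4.Tables
open Cfsg.Agent.ChevalleyStructure.TwF4.Torus (all_of)
open Cfsg.Agent.ChevalleyStructure.F4NTab (ct)
open Cfsg.Agent.ChevalleyStructure.F4TwU
open Cfsg.Agent.ChevalleyStructure.TwF4.NRoot (sp_lt)
open Cfsg.Agent.FourTwo.Base hiding bar bar_lt
open Cfsg.Agent.FourTwo.Comm Cfsg.Agent.FourTwo.BN Cfsg.Agent.FourTwo.Par Cfsg.Agent.FourTwo.Cent
open Cfsg.Agent.FourTwo.CentAll Cfsg.Agent.FourTwo.Facts2

attribute [local irreducible] x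

/-! ### conjugacy orbits of subgroups -/

/-- conjugate under `H` -/
def Ob {G : Type*} [Group G] (H : Subgroup G) (y g : G) : Prop := ∃ h ∈ H, g = h * y * h⁻¹

theorem Ob.refl {G : Type*} [Group G] (H : Subgroup G) (y : G) : Ob H y y := ⟨1, one_mem _, by simp⟩

theorem Ob.trans {G : Type*} [Group G] {H : Subgroup G} {y g k : G} (h1 : Ob H y g) (h2 : Ob H g k) : Ob H y k := by
  obtain ⟨a, ha, rfl⟩ := h1
  obtain ⟨b, hb, rfl⟩ := h2
  exact ⟨b * a, mul_mem hb ha, by group⟩

theorem Ob.symm {G : Type*} [Group G] {H : Subgroup G} {y g : G} (h1 : Ob H y g) : Ob H g y := by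
  obtain ⟨a, ha, rfl⟩ := h1
  exact ⟨a⁻¹, inv_mem ha, by group⟩

/-- the length of the orbit, if the stabilizer has a complement -/
theorem card_Ob {G : Type*} [Group G] [Finite G] {H K L : Subgroup G} {y : G} (hK : K ≤ H)
    (hKc : ∀ k ∈ K, k * y = y * k) (hL : L ≤ H) (hLc : ∀ v ∈ L, v * y = y * v → v = 1)
    (hcard : Nat.card H = Nat.card K * Nat.card L) : Nat.card {g // Ob H y g} = Nat.card L := by
  classical
  let iact : MulAction H G := MulAction.compHom G ((MulAut.conj : G →* MulAut G).comp H.subtype)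
  have hact : ∀ (h : H) (g : G), h • g = (h : G) * g * (h : G)⁻¹ := fun _ _ => rfl
  have e1 : Nat.card {g // Ob H y g} = Nat.card (MulAction.orbit H y) := by
    refine Nat.card_congr (Equiv.subtypeEquivRight fun g => ?_)
    constructor
    · rintro ⟨h, hh, rfl⟩
      exact ⟨⟨h, hh⟩, rfl⟩
    · rintro ⟨⟨h, hh⟩, rfl⟩
      exact ⟨h, hh, rfl⟩
  have e2 := (MulAction.stabilizer H y).card_mul_index
  rw [MulAction.index_stabilizer, ← Nat.card_coe_set_eq, mul_comm] at e2
  have hKs : Nat.card K ≤ Nat.card (MulAction.stabilizer H y) := by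
    refine Nat.card_le_card_of_injective (fun k : K => (⟨⟨k.1, hK k.2⟩, ?_⟩ : MulAction.stabilizer H y)) ?_
    · rw [MulAction.mem_stabilizer_iff]
      show (k : G) * y * (k : G)⁻¹ = y
      rw [hKc k k.2, mul_inv_cancel_right]
    · intro a b hab
      exact Subtype.ext (congrArg (fun z => ((z.1 : H) : G)) hab)
  have hLo : Nat.card L ≤ Nat.card {g // Ob H y g} := by
    refine Nat.card_le_card_of_injective (fun v : L => (⟨v.1 * y * v.1⁻¹, v.1, hL v.2, rfl⟩ : {g // Ob H y g})) ?_
    intro a b hab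
    have h1 : (a : G) * y * (a : G)⁻¹ = (b : G) * y * (b : G)⁻¹ := congrArg Subtype.val hab
    have h2 : (b : G)⁻¹ * a * y = y * ((b : G)⁻¹ * a) := by
      calc (b : G)⁻¹ * a * y = (b : G)⁻¹ * (a * y * (a : G)⁻¹) * a := by group
        _ = (b : G)⁻¹ * (b * y * (b : G)⁻¹) * a := by rw [h1]
        _ = _ := by group
    have h3 := hLc _ (mul_mem (inv_mem b.2) a.2) h2
    exact Subtype.ext (inv_mul_eq_one.1 h3).symm
  have hKp : 0 < Nat.card K := Nat.card_pos
  have e3 : Nat.card (MulAction.orbit H y) * Nat.card (MulAction.stabilizer H y) = Nat.card H := e2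
  refine le_antisymm ?_ hLo
  rw [e1]
  have h5 : Nat.card (MulAction.orbit H y) * Nat.card K ≤ Nat.card L * Nat.card K := by
    calc Nat.card (MulAction.orbit H y) * Nat.card K
        ≤ Nat.card (MulAction.orbit H y) * Nat.card (MulAction.stabilizer H y) := Nat.mul_le_mul_left _ hKs
      _ = Nat.card L * Nat.card K := by rw [e3, hcard, mul_comm]
  exact Nat.le_of_mul_le_mul_right h5 hKp

/-! ### the roots -/

/-- the short roots -/
def sh : List ℕ :=
  [3, 7, 8, 9, 10, 11, 12, 13, 14, 18, 19, 20, 27, 28, 29, 33, 34, 35, 36, 37, 38, 39, 40, 44]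

theorem sh_lt {r : ℕ} (h : r ∈ sh) : r < 48 := by
  have : ∀ r ∈ sh, r < 48 := by decide
  exact this r h

/-- the positive roots with negative inner product with `r` -/
def neP (r b : ℕ) : Bool := decide (24 ≤ b) && !ge r b

/-- the positive roots with nonnegative inner product with `r` -/
def poP (r b : ℕ) : Bool := decide (24 ≤ b) && ge r b

/-- the number of positive roots with negative inner product with `r` -/
def l (r : ℕ) : ℕ := ((posList 24).filter (neP r)).length

theorem closed_ne {r : ℕ} (h : r ∈ sh) : closedB (neP r) = true := by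
  have : (sh.all fun r => closedB (neP r)) = true := by decide +kernel
  exact List.all_eq_true.1 this r h

theorem closed_po {r : ℕ} (h : r ∈ sh) : closedB (poP r) = true := by
  have : (sh.all fun r => closedB (poP r)) = true := by decide +kernel
  exact List.all_eq_true.1 this r h

theorem len_add {r : ℕ} (h : r ∈ sh) : 24 = ((posList 24).filter (poP r)).length + l r := by
  have : (sh.all fun r => decide (24 = ((posList 24).filter (poP r)).length + ((posList 24).filter (neP r)).length)) = true := by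
    decide +kernel
  exact of_decide_eq_true (List.all_eq_true.1 this r h)

theorem isShort_of {r : ℕ} (h : r ∈ sh) : isShort r = true := by
  have : ∀ r ∈ sh, isShort r = true := by decide
  exact this r h

/-! ### the complement of the centralizer of `x r` in `U` -/

/-- the negatives of the roots of `Q` -/
def mQ (r : ℕ) : Bool := decide (r < 15)

/-- `x 44 * x 3 * x 44` -/
theorem conj_t {r : ℕ} (h : r < 15) : wd [44, 3, 44] * x r * (wd [44, 3, 44])⁻¹ ∈ U := by
  have ht : ∀ r < 15, ∃ s, 24 ≤ s ∧ s < 48 ∧ chk [s] [44, 3, 44, r, 44, 3, 44] = true := by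
    intro r hr
    have h1 : ((List.range 15).all fun r => (List.range 24).any fun s => chk [24 + s] [44, 3, 44, r, 44, 3, 44]) = true := by
      decide +kernel
    have h2 := all_of h1 hr
    rw [List.any_eq_true] at h2
    obtain ⟨s, hs, h3⟩ := h2
    exact ⟨24 + s, by omega, by rw [List.mem_range] at hs; omega, h3⟩
  obtain ⟨s, h1, h2, h3⟩ := ht r h
  have h4 := wd_eq _ _ h3
  have h5 : (wd [44, 3, 44])⁻¹ = wd [44, 3, 44] := by
    rw [← wd_reverse]
    rfl
  have h6 : wd [44, 3, 44] * x r * (wd [44, 3, 44])⁻¹ = x s := by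
    rw [h5, ← wd_one s, h4]
    simp only [wd_cons, wd_nil, mul_one, mul_assoc]
  rw [h6]
  exact x_mem_U h1 h2

theorem mQ_trivial {v : LL} (hv : v ∈ RG mQ) (hc : v * x 44 = x 44 * v) : v = 1 := by
  have h3 : v * x 3 = x 3 * v := by
    have h1 : RG mQ ≤ Subgroup.centralizer {x 3} := by
      rw [cent_root (by omega)]
      refine RG_mono fun r hr h => ?_
      have h2 : ((List.range 48).all fun r => !mQ r || ge 3 r) = true := by decide +kernel
      have h4 := all_of h2 hr
      rwa [h, Bool.not_true, Bool.false_or] at h4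
    have h2 := h1 hv
    rwa [Subgroup.mem_centralizer_singleton_iff] at h2
  have h4 : wd [44, 3, 44] * v * (wd [44, 3, 44])⁻¹ = v := by
    have h5 : wd [44, 3, 44] = x 44 * x 3 * x 44 := by simp [wd_cons, mul_assoc]
    rw [h5]
    have h6 : x 44 * x 3 * x 44 * v = v * (x 44 * x 3 * x 44) := by
      calc x 44 * x 3 * x 44 * v = x 44 * x 3 * (x 44 * v) := by group
        _ = x 44 * x 3 * (v * x 44) := by rw [hc]
        _ = x 44 * (x 3 * v) * x 44 := by group
        _ = x 44 * (v * x 3) * x 44 := by rw [h3]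
        _ = (x 44 * v) * x 3 * x 44 := by group
        _ = (v * x 44) * x 3 * x 44 := by rw [hc]
        _ = _ := by group
    rw [h6, mul_inv_cancel_right]
  have h5 : v ∈ U := by
    have h6 : RG mQ ≤ U.comap (MulAut.conj (wd [44, 3, 44])).toMonoidHom := RG_le fun r hr h => by
      rw [Subgroup.mem_comap]
      exact conj_t (of_decide_eq_true h)
    have h7 := h6 hv
    rw [Subgroup.mem_comap] at h7
    have h8 : wd [44, 3, 44] * v * (wd [44, 3, 44])⁻¹ ∈ U := h7
    rwa [h4] at h8
  have h6 : v ∈ V := by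
    have h7 : RG mQ ≤ V := RG_le fun r hr h => x_mem_V (by
      have := of_decide_eq_true h
      omega)
    exact h7 hv
  have h7 : v ∈ U ⊓ V := ⟨h5, h6⟩
  rwa [U_inf_V, Subgroup.mem_bot] at h7

theorem ne_tab : (sh.all fun r => (List.range 48).all fun b => !neP r b ||
    (List.range 48).any fun c => mQ c && (act (tw r) c == b)) = true := by decide +kernel

theorem ne_trivial {r : ℕ} (hr : r ∈ sh) {v : LL} (hv : v ∈ RG (neP r)) (hc : v * x r = x r * v) : v = 1 := by
  have hr' := sh_lt hr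
  have hb : base r = 44 := by
    unfold base
    rw [isShort_of hr]
    rfl
  have hw := wr_base hr'
  rw [hb] at hw
  -- conjugate back
  have h1 : RG (neP r) ≤ (RG mQ).comap (MulAut.conj (wr r)⁻¹).toMonoidHom := RG_le fun b hb' h => by
    rw [Subgroup.mem_comap]
    show (wr r)⁻¹ * x b * ((wr r)⁻¹)⁻¹ ∈ RG mQ
    have h2 := all_of (List.all_eq_true.1 ne_tab r hr) hb'
    rw [h, Bool.not_true, Bool.false_or, List.any_eq_true] at h2
    obtain ⟨c, hc', h3⟩ := h2
    rw [Bool.and_eq_true, beq_iff_eq] at h3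
    have h4 := wr_conj hr' (List.mem_range.1 hc')
    rw [h3.2] at h4
    rw [← h4]
    have h5 : (wr r)⁻¹ * (wr r * x c * (wr r)⁻¹) * ((wr r)⁻¹)⁻¹ = x c := by group
    rw [h5]
    exact x_mem_RG (List.mem_range.1 hc') h3.1
  have h2 := h1 hv
  rw [Subgroup.mem_comap] at h2
  have h3 : (wr r)⁻¹ * v * wr r ∈ RG mQ := by
    have : (MulAut.conj (wr r)⁻¹).toMonoidHom v = (wr r)⁻¹ * v * wr r := by
      show (wr r)⁻¹ * v * ((wr r)⁻¹)⁻¹ = _
      rw [inv_inv]
    rwa [this] at h2
  have h4 : (wr r)⁻¹ * v * wr r * x 44 = x 44 * ((wr r)⁻¹ * v * wr r) := by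
    have h5 : x 44 = (wr r)⁻¹ * x r * wr r := by rw [← hw]; group
    rw [h5]
    calc (wr r)⁻¹ * v * wr r * ((wr r)⁻¹ * x r * wr r) = (wr r)⁻¹ * (v * x r) * wr r := by group
      _ = (wr r)⁻¹ * (x r * v) * wr r := by rw [hc]
      _ = _ := by group
  have h5 := mQ_trivial h3 h4
  have h6 : v = wr r * ((wr r)⁻¹ * v * wr r) * (wr r)⁻¹ := by group
  rw [h6, h5, mul_one, mul_inv_cancel]

/-! ### the `U`-orbits -/

/-- conjugate to `x r` under `U` -/
abbrev UO (r : ℕ) (g : LL) : Prop := Ob U (x r) g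

theorem card_UO {r : ℕ} (hr : r ∈ sh) : Nat.card {g // UO r g} = 2 ^ l r := by
  have h1 := card_RG (closed_ne hr)
  have h2 := card_RG (closed_po hr)
  have h3 : Nat.card {g // UO r g} = Nat.card (RG (neP r)) := by
    refine card_Ob (K := RG (poP r)) (RG_le_U (closed_po hr)) (fun k hk => ?_) (RG_le_U (closed_ne hr))
      (fun v hv hc => ne_trivial hr hv hc) ?_
    · have h4 : RG (poP r) ≤ Subgroup.centralizer {x r} := by
        rw [cent_root (sh_lt hr)]
        exact RG_mono fun b _ h => by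
          unfold poP at h
          rw [Bool.and_eq_true] at h
          exact h.2
      have h5 := h4 hk
      rwa [Subgroup.mem_centralizer_singleton_iff] at h5
    · rw [h1, h2, Cfsg.Agent.FourTwo.AutF4.card_U, ← pow_add, ← l, ← len_add hr]
  rw [h3, h1, l]

theorem exists_UO (y : LL) : ∃ r ∈ sh, UO r (y * x 44 * y⁻¹) := by
  obtain ⟨u, hu, a, ha, hs, h⟩ := short_pair y
  refine ⟨a, ?_, u, hu, h⟩
  have h1 := all_of short_list ha
  rw [hs, Bool.not_true, Bool.false_or] at h1
  exact List.contains_iff_mem.1 h1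

/-! ### the action of `n i` -/

/-- the positive roots different from the simple root -/
def aP (i r : ℕ) : Bool := decide (24 ≤ r) && !(r == sp i)

theorem closed_a {i : ℕ} (hi : i < 4) : closedB (aP i) = true := by
  have : ((List.range 4).all fun i => closedB (aP i)) = true := by decide +kernel
  exact all_of this hi

/-- `U ∩ U ^ n i` -/
abbrev A (i : ℕ) : Subgroup LL := RG (aP i)

theorem A_le {i : ℕ} (hi : i < 4) : A i ≤ U := RG_le_U (closed_a hi)

theorem n_norm {i : ℕ} (hi : i < 4) {a : LL} (ha : a ∈ A i) : n i * a * (n i)⁻¹ ∈ A i := by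
  refine conj_RG (P := aP i) (fun b hb h => ?_) ha
  rw [n_conj hi hb]
  have h1 : ((List.range 4).all fun i => (List.range 48).all fun b => !aP i b || (aP i (refl i b) && decide (refl i b < 48))) = true := by
    decide +kernel
  have h2 := all_of (all_of h1 hi) hb
  rw [h, Bool.not_true, Bool.false_or, Bool.and_eq_true, decide_eq_true_eq] at h2
  exact x_mem_RG h2.2 h2.1

theorem x_norm {i : ℕ} (hi : i < 4) {a : LL} (ha : a ∈ A i) : x (sp i) * a * x (sp i) ∈ A i := by
  have h1 : ((List.range 4).all fun i => normB (fun r => r == sp i) (aP i)) = true := by decide +kernel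
  have h2 := all_of h1 hi
  have h3 := conj_mem h2 (u := x (sp i)) (g := a) (x_mem_RG (sp_lt hi) (by simp)) ha
  rwa [x_inv] at h3

theorem split_U {i : ℕ} (hi : i < 4) {u : LL} (hu : u ∈ U) : u ∈ A i ∨ ∃ a ∈ A i, u = a * x (sp i) := by
  have hx := x_mul_self (sp i)
  rw [U_eq] at hu
  unfold RG at hu
  refine Subgroup.closure_induction_left (p := fun u _ => u ∈ A i ∨ ∃ a ∈ A i, u = a * x (sp i)) ?_ ?_ ?_ hu
  · exact Or.inl (one_mem _)
  · rintro _ ⟨r, hr, hp, rfl⟩ y _ hy
    by_cases hrs : r = sp i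
    · subst hrs
      rcases hy with hy | ⟨a, ha, rfl⟩
      · refine Or.inr ⟨_, x_norm hi hy, ?_⟩
        rw [mul_assoc (x (sp i) * y), hx, mul_one]
      · refine Or.inl ?_
        rw [← mul_assoc]
        exact x_norm hi ha
    · have h1 : x r ∈ A i := x_mem_RG hr (by
        unfold aP
        unfold posP at hp
        rw [hp, Bool.true_and, Bool.not_eq_true', beq_eq_false_iff_ne]
        exact hrs)
      rcases hy with hy | ⟨a, ha, rfl⟩
      · exact Or.inl (mul_mem h1 hy)
      · exact Or.inr ⟨_, mul_mem h1 ha, by rw [mul_assoc]⟩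
  · rintro _ ⟨r, hr, hp, rfl⟩ y _ hy
    rw [x_inv]
    by_cases hrs : r = sp i
    · subst hrs
      rcases hy with hy | ⟨a, ha, rfl⟩
      · refine Or.inr ⟨_, x_norm hi hy, ?_⟩
        rw [mul_assoc (x (sp i) * y), hx, mul_one]
      · refine Or.inl ?_
        rw [← mul_assoc]
        exact x_norm hi ha
    · have h1 : x r ∈ A i := x_mem_RG hr (by
        unfold aP
        unfold posP at hp
        rw [hp, Bool.true_and, Bool.not_eq_true', beq_eq_false_iff_ne]
        exact hrs)
      rcases hy with hy | ⟨a, ha, rfl⟩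
      · exact Or.inl (mul_mem h1 hy)
      · exact Or.inr ⟨_, mul_mem h1 ha, by rw [mul_assoc]⟩

/-- conjugate under `A i` to `x r` -/
abbrev AO (i r : ℕ) (g : LL) : Prop := Ob (A i) (x r) g

/-- conjugate under `A i` to `x r` conjugated by the simple root element -/
abbrev BO (i r : ℕ) (g : LL) : Prop := Ob (A i) (x (sp i) * x r * x (sp i)) g

theorem comm_ge {r b : ℕ} (hr : r < 48) (hb : b < 48) (h : ge r b = true) : x b * x r = x r * x b := by
  have h1 : x b ∈ Subgroup.centralizer {x r} := by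
    rw [cent_root hr]
    exact x_mem_RG hb h
  rwa [Subgroup.mem_centralizer_singleton_iff] at h1

theorem UO_of_AO {i r : ℕ} (hi : i < 4) {g : LL} (h : AO i r g) : UO r g := by
  obtain ⟨a, ha, rfl⟩ := h
  exact ⟨a, A_le hi ha, rfl⟩

theorem UO_of_BO {i r : ℕ} (hi : i < 4) {g : LL} (h : BO i r g) : UO r g := by
  obtain ⟨a, ha, rfl⟩ := h
  refine ⟨a * x (sp i), mul_mem (A_le hi ha) (x_mem_U (Cfsg.Agent.FourTwo.AutF4.sp_ge i hi) (sp_lt hi)), ?_⟩
  rw [mul_inv_rev, x_inv]
  group

theorem UO_split {i r : ℕ} (hi : i < 4) {g : LL} (h : UO r g) : AO i r g ∨ BO i r g := by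
  obtain ⟨u, hu, rfl⟩ := h
  rcases split_U hi hu with h1 | ⟨a, ha, rfl⟩
  · exact Or.inl ⟨u, h1, rfl⟩
  · refine Or.inr ⟨a, ha, ?_⟩
    rw [mul_inv_rev, x_inv]
    group

theorem AO_of_UO {i r : ℕ} (hi : i < 4) (hr : r < 48) (hge : ge r (sp i) = true) {g : LL} (h : UO r g) : AO i r g := by
  rcases UO_split hi h with h1 | ⟨a, ha, rfl⟩
  · exact h1
  · refine ⟨a, ha, ?_⟩
    rw [comm_ge hr (sp_lt hi) hge, mul_assoc (x r), x_mul_self, mul_one]

theorem AO_n {i r : ℕ} (hi : i < 4) (hr : r < 48) {g : LL} (h : AO i r g) : AO i (refl i r) (n i * g * (n i)⁻¹) := by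
  obtain ⟨a, ha, rfl⟩ := h
  refine ⟨n i * a * (n i)⁻¹, n_norm hi ha, ?_⟩
  rw [← n_conj hi hr]
  group

theorem n_x {i : ℕ} (hi : i < 4) : n i * x (sp i) = x (sp i) * x (47 - sp i) := by
  rw [n_eq_wd]
  simp only [wd_cons, wd_nil, mul_one]
  rw [mul_assoc, mul_assoc, x_mul_self, mul_one]

theorem BO_n {i r : ℕ} (hi : i < 4) (hr : r < 48) (hge : ge r (47 - sp i) = true) {g : LL} (h : BO i r g) :
    BO i r (n i * g * (n i)⁻¹) := by
  obtain ⟨a, ha, rfl⟩ := h
  refine ⟨n i * a * (n i)⁻¹, n_norm hi ha, ?_⟩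
  have h1 : n i * (x (sp i) * x r * x (sp i)) * (n i)⁻¹ = x (sp i) * x r * x (sp i) := by
    have h2 : x (47 - sp i) * x r * x (47 - sp i) = x r := by
      rw [comm_ge hr (by omega) hge, mul_assoc, x_mul_self, mul_one]
    have h3 : (x (sp i) * x (47 - sp i))⁻¹ = x (47 - sp i) * x (sp i) := by rw [mul_inv_rev, x_inv, x_inv]
    calc n i * (x (sp i) * x r * x (sp i)) * (n i)⁻¹ = (n i * x (sp i)) * x r * (n i * (x (sp i))⁻¹)⁻¹ := by group
      _ = (x (sp i) * x (47 - sp i)) * x r * (x (sp i) * x (47 - sp i))⁻¹ := by rw [x_inv, n_x hi]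
      _ = x (sp i) * (x (47 - sp i) * x r * x (47 - sp i)) * x (sp i) := by rw [h3]; group
      _ = _ := by rw [h2]
  calc n i * (a * (x (sp i) * x r * x (sp i)) * a⁻¹) * (n i)⁻¹
      = (n i * a * (n i)⁻¹) * (n i * (x (sp i) * x r * x (sp i)) * (n i)⁻¹) * (n i * a * (n i)⁻¹)⁻¹ := by group
    _ = _ := by rw [h1]

/-! ### the orbits are disjoint -/

theorem l_refl : (sh.all fun r => (List.range 4).all fun i => ge r (sp i) || (decide (l (refl i r) + 1 = l r) &&
    ge r (47 - sp i) && ge (refl i r) (sp i))) = true := by decide +kernel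

theorem refl_mem {i r : ℕ} (hi : i < 4) (hr : r ∈ sh) : refl i r ∈ sh := by
  have h1 : (sh.all fun r => (List.range 4).all fun i => sh.contains (refl i r)) = true := by decide +kernel
  exact List.contains_iff_mem.1 (all_of (List.all_eq_true.1 h1 r hr) hi)

theorem refl_refl {i r : ℕ} (hi : i < 4) (hr : r ∈ sh) : refl i (refl i r) = r := by
  have h1 : (sh.all fun r => (List.range 4).all fun i => refl i (refl i r) == r) = true := by decide +kernel
  exact beq_iff_eq.1 (all_of (List.all_eq_true.1 h1 r hr) hi)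

theorem exists_desc {r : ℕ} (hr : r ∈ sh) (h : r ≠ 44) : ∃ i < 4, ge r (sp i) = false := by
  have h1 : (sh.all fun r => r == 44 || (List.range 4).any fun i => !ge r (sp i)) = true := by decide +kernel
  have h2 := List.all_eq_true.1 h1 r hr
  rw [Bool.or_eq_true, beq_iff_eq, List.any_eq_true] at h2
  rcases h2 with h2 | ⟨i, hi, h3⟩
  · exact absurd h2 h
  · exact ⟨i, List.mem_range.1 hi, by simpa using h3⟩

theorem desc {r i : ℕ} (hr : r ∈ sh) (hi : i < 4) (h : ge r (sp i) = false) :
    l (refl i r) + 1 = l r ∧ ge r (47 - sp i) = true ∧ ge (refl i r) (sp i) = true := by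
  have h1 := all_of (List.all_eq_true.1 l_refl r hr) hi
  rw [h, Bool.false_or, Bool.and_eq_true, Bool.and_eq_true, decide_eq_true_eq] at h1
  exact ⟨h1.1.1, h1.1.2, h1.2⟩

theorem l_eq_of_UO {r s : ℕ} (hr : r ∈ sh) (hs : s ∈ sh) (h : UO r (x s)) : l r = l s := by
  have h1 : ∀ g, UO r g ↔ UO s g := fun g => ⟨fun h2 => h.symm.trans h2, fun h2 => h.trans h2⟩
  have h2 : Nat.card {g // UO r g} = Nat.card {g // UO s g} := Nat.card_congr (Equiv.subtypeEquivRight h1)
  rw [card_UO hr, card_UO hs] at h2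
  exact Nat.pow_right_injective (le_refl 2) h2

theorem eq_of_UO : ∀ (m r s : ℕ), l r = m → r ∈ sh → s ∈ sh → UO r (x s) → r = s := by
  intro m
  induction m with
  | zero =>
    intro r s hm hr hs h
    have h1 : ∀ r ∈ sh, l r = 0 → r = 44 := by
      have : (sh.all fun r => r == 44 || !(l r == 0)) = true := by decide +kernel
      intro r hr h
      have h2 := List.all_eq_true.1 this r hr
      rw [h] at h2
      simpa using h2
    rw [h1 r hr hm, h1 s hs (by rw [← l_eq_of_UO hr hs h, hm])]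
  | succ m ih =>
    intro r s hm hr hs h
    have hr44 : r ≠ 44 := by
      rintro rfl
      have : l 44 = 0 := by decide +kernel
      omega
    obtain ⟨i, hi, hge⟩ := exists_desc hr hr44
    obtain ⟨hl, hneg, -⟩ := desc hr hi hge
    have hi' : AO i r (x s) → r = s := by
      intro h1
      have h2 := UO_of_AO hi (AO_n hi (sh_lt hr) h1)
      rw [n_conj hi (sh_lt hs)] at h2
      have h3 := ih (refl i r) (refl i s) (by omega) (refl_mem hi hr) (refl_mem hi hs) h2
      rw [← refl_refl hi hr, h3, refl_refl hi hs]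
    rcases UO_split hi h with h1 | h1
    · exact hi' h1
    · by_cases hs' : ge s (sp i) = true
      · apply hi'
        obtain ⟨a, ha, h2⟩ := h1
        refine ⟨x (sp i) * a * x (sp i), x_norm hi ha, ?_⟩
        have h3 : x s = x (sp i) * x s * x (sp i) := by
          rw [comm_ge (sh_lt hs) (sp_lt hi) hs', mul_assoc, x_mul_self, mul_one]
        rw [h3, h2]
        have h4 : (x (sp i) * a * x (sp i))⁻¹ = x (sp i) * a⁻¹ * x (sp i) := by
          rw [mul_inv_rev, mul_inv_rev, x_inv, mul_assoc]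
        rw [h4]
        group
      · exfalso
        rw [Bool.not_eq_true] at hs'
        obtain ⟨hls, -, -⟩ := desc hs hi hs'
        have h2 := BO_n hi (sh_lt hr) hneg h1
        rw [n_conj hi (sh_lt hs)] at h2
        have h3 := UO_of_BO hi h2
        have h4 := l_eq_of_UO hs (refl_mem hi hs) (h.symm.trans h3)
        omega

theorem UO_unique {r s : ℕ} (hr : r ∈ sh) (hs : s ∈ sh) {g : LL} (h1 : UO r g) (h2 : UO s g) : r = s :=
  eq_of_UO (l r) r s rfl hr hs (h1.trans h2.symm)

/-- the two halves -/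
theorem card_AO {i r : ℕ} (hi : i < 4) (hr : r ∈ sh) (hge : ge r (sp i) = false) :
    Nat.card {g // AO i r g} = 2 ^ (l r - 1) := by
  obtain ⟨hl, -, hg⟩ := desc hr hi hge
  have h1 : Nat.card {g // AO i r g} = Nat.card {g // UO (refl i r) g} := by
    refine Nat.card_congr ((MulAut.conj (n i)).toEquiv.subtypeEquiv fun g => ?_)
    show AO i r g ↔ UO (refl i r) (n i * g * (n i)⁻¹)
    constructor
    · intro h
      exact UO_of_AO hi (AO_n hi (sh_lt hr) h)
    · intro h
      have h2 := AO_n hi (sh_lt (refl_mem hi hr)) (AO_of_UO hi (sh_lt (refl_mem hi hr)) hg h)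
      rw [refl_refl hi hr] at h2
      have h3 : n i * (n i * g * (n i)⁻¹) * (n i)⁻¹ = g := by
        have h4 := n_mul_self hi
        rw [n_inv hi]
        calc n i * (n i * g * n i) * n i = (n i * n i) * g * (n i * n i) := by group
          _ = g := by rw [h4, one_mul, mul_one]
      rwa [h3] at h2
  rw [h1, card_UO (refl_mem hi hr)]
  congr 1
  omega

theorem card_BO {i r : ℕ} (hi : i < 4) (hr : r ∈ sh) (hge : ge r (sp i) = false) :
    Nat.card {g // BO i r g} = 2 ^ (l r - 1) := by
  rw [← card_AO hi hr hge]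
  refine Nat.card_congr ((MulAut.conj (x (sp i))).toEquiv.subtypeEquiv fun g => ?_)
  show BO i r g ↔ AO i r (x (sp i) * g * (x (sp i))⁻¹)
  rw [x_inv]
  constructor
  · rintro ⟨a, ha, rfl⟩
    refine ⟨x (sp i) * a * x (sp i), x_norm hi ha, ?_⟩
    have h4 : (x (sp i) * a * x (sp i))⁻¹ = x (sp i) * a⁻¹ * x (sp i) := by
      rw [mul_inv_rev, mul_inv_rev, x_inv, mul_assoc]
    rw [h4]
    group
  · rintro ⟨a, ha, h⟩
    refine ⟨x (sp i) * a * x (sp i), x_norm hi ha, ?_⟩
    have h4 : (x (sp i) * a * x (sp i))⁻¹ = x (sp i) * a⁻¹ * x (sp i) := by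
      rw [mul_inv_rev, mul_inv_rev, x_inv, mul_assoc]
    have h5 : g = x (sp i) * (x (sp i) * g * x (sp i)) * x (sp i) := by
      have h6 := x_mul_self (sp i)
      calc g = (x (sp i) * x (sp i)) * g * (x (sp i) * x (sp i)) := by rw [h6, one_mul, mul_one]
        _ = _ := by group
    rw [h5, h, h4]
    have h6 := x_mul_self (sp i)
    calc x (sp i) * (a * x r * a⁻¹) * x (sp i)
        = x (sp i) * a * (x (sp i) * x (sp i)) * x r * (x (sp i) * x (sp i)) * a⁻¹ * x (sp i) := by
          rw [h6, mul_one, mul_one]; group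
      _ = _ := by group

theorem AO_BO_disj {i r : ℕ} (hi : i < 4) (hr : r ∈ sh) (hge : ge r (sp i) = false) {g : LL} (h1 : AO i r g)
    (h2 : BO i r g) : False := by
  -- otherwise the two orbits are equal
  have h3 : ∀ k, UO r k ↔ AO i r k := by
    intro k
    constructor
    · intro h
      rcases UO_split hi h with h4 | h4
      · exact h4
      · exact h1.trans (h2.symm.trans h4)
    · exact fun h => UO_of_AO hi h
  have h4 : Nat.card {g // UO r g} = Nat.card {g // AO i r g} := Nat.card_congr (Equiv.subtypeEquivRight h3)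
  rw [card_UO hr, card_AO hi hr hge] at h4
  have h5 := Nat.pow_right_injective (le_refl 2) h4
  obtain ⟨hl, -, -⟩ := desc hr hi hge
  omega

end Cfsg.Agent.H622.PB.Pts
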