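import Cfsg.Agent.H622.PB.Pts
import Cfsg.Agent.H593.IMFrame

/-!
# `F₄(2)`: the rank 5 action on the 69615 short root elements (helper622)

`X` : the short root elements, `typ z` the orbit of `z` under the centralizer of `x 44`;
`exists_sub` : the subdegrees are `1, 270, 2016, 34560, 32768`; `card_m` : the number of points of type `i` mapped by
`n 0` to points of type `j`.
-/

set_option autoImplicit false
set_option maxRecDepth 100000

namespace Cfsg.Agent.H622.PB.Sch

open Cfsg.Lie Cfsg.Agent.ChevalleyStructure.TwF4.Rel Cfsg.Agent.ChevalleyStructure.TwF4.Tables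
open Cfsg.Agent.ChevalleyStructure.TwF4.Torus (all_of)
open Cfsg.Agent.ChevalleyStructure.F4TwU
open Cfsg.Agent.ChevalleyStructure.TwF4.NRoot (sp_lt)
open Cfsg.Agent.FourTwo.Base hiding bar bar_lt
open Cfsg.Agent.FourTwo.Comm Cfsg.Agent.FourTwo.BN Cfsg.Agent.FourTwo.Par Cfsg.Agent.FourTwo.Cent
open Cfsg.Agent.FourTwo.CentAll Cfsg.Agent.FourTwo.Facts2 Cfsg.Agent.H622.PB.Pts
open Cfsg.Agent.H593.IMFrame (Sub Rel)

attribute [local irreducible] x

/-- the short root elements -/
abbrev X : Type := {g : LL // ∃ y : LL, g = y * x 44 * y⁻¹}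

instance act : MulAction LL X where
  smul g z := ⟨g * z.1 * g⁻¹, by
    obtain ⟨y, h⟩ := z.2
    exact ⟨g * y, by rw [h]; group⟩⟩
  one_smul z := Subtype.ext (by
    show 1 * z.1 * 1⁻¹ = z.1
    simp)
  mul_smul g h z := Subtype.ext (by
    show g * h * z.1 * (g * h)⁻¹ = g * (h * z.1 * h⁻¹) * g⁻¹
    group)

theorem coe_smul (g : LL) (z : X) : (g • z : X).1 = g * z.1 * g⁻¹ := rfl

instance finX : Finite X := Subtype.finite

theorem exists_cl (z : X) : ∃ r ∈ sh, UO r z.1 := by
  obtain ⟨y, h⟩ := z.2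
  obtain ⟨r, hr, h1⟩ := exists_UO y
  exact ⟨r, hr, by rw [h]; exact h1⟩

/-- the root of the `U`-orbit -/
noncomputable def cl (z : X) : ℕ := (exists_cl z).choose

theorem cl_mem (z : X) : cl z ∈ sh := (exists_cl z).choose_spec.1

theorem cl_UO (z : X) : UO (cl z) z.1 := (exists_cl z).choose_spec.2

theorem cl_eq {z : X} {r : ℕ} (hr : r ∈ sh) (h : UO r z.1) : cl z = r := UO_unique (cl_mem z) hr (cl_UO z) h

theorem cl_iff {z : X} {r : ℕ} (hr : r ∈ sh) : cl z = r ↔ UO r z.1 := ⟨fun h => h ▸ cl_UO z, cl_eq hr⟩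

theorem mem_X {r : ℕ} (hr : r ∈ sh) : ∃ y : LL, x r = y * x 44 * y⁻¹ := by
  have hw := wr_base (sh_lt hr)
  have hb : base r = 44 := by
    unfold base
    rw [isShort_of hr]
    rfl
  rw [hb] at hw
  exact ⟨_, hw.symm⟩

theorem mem_X_of_UO {r : ℕ} (hr : r ∈ sh) {g : LL} (h : UO r g) : ∃ y : LL, g = y * x 44 * y⁻¹ := by
  obtain ⟨y, hy⟩ := mem_X hr
  obtain ⟨u, _, rfl⟩ := h
  exact ⟨u * y, by rw [hy]; group⟩

/-- the point of a short root -/
def pt (r : ℕ) (hr : r ∈ sh) : X := ⟨x r, mem_X hr⟩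

theorem cl_pt {r : ℕ} (hr : r ∈ sh) : cl (pt r hr) = r := cl_eq hr (Ob.refl _ _)

/-! ### the types -/

/-- the type of a short root -/
def ty (r : ℕ) : Fin 5 := if r = 44 then 0 else if 33 ≤ r then 1 else if 18 ≤ r then 2 else if 7 ≤ r then 3 else 4

/-- the representatives -/
def br : Fin 5 → ℕ := ![44, 40, 29, 14, 3]

theorem br_mem : ∀ i, br i ∈ sh := by decide

theorem ty_br : ∀ i, ty (br i) = i := by decide

/-- words from the representatives -/
def wT : List (List ℕ) := [[], [1, 2, 3, 1, 2, 1], [2, 3, 1, 2, 1], [3, 1, 2, 1], [1, 2, 1], [3, 2, 1], [2, 1], [1], [],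
  [3, 2, 1, 2, 3], [2, 1, 2, 3], [1, 2, 3], [2, 3], [3], [], [1, 2, 3, 1, 2, 1], [2, 3, 1, 2, 1], [3, 1, 2, 1], [1, 2, 1],
  [3, 2, 1], [2, 1], [1], [], []]

theorem exists_word {r : ℕ} (hr : r ∈ sh) : ∃ w : List ℕ, (∀ i ∈ w, i < 4 ∧ i ≠ 0) ∧ Cfsg.Agent.FourTwo.BN.act w (br (ty r)) = r := by
  have h1 : (sh.all fun r => wT.any fun w => (w.all fun i => decide (i < 4) && !(i == 0)) &&
      (Cfsg.Agent.FourTwo.BN.act w (br (ty r)) == r)) = true := by decide +kernel
  have h2 := List.all_eq_true.1 h1 r hr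
  rw [List.any_eq_true] at h2
  obtain ⟨w, -, h3⟩ := h2
  rw [Bool.and_eq_true, beq_iff_eq, List.all_eq_true] at h3
  refine ⟨w, fun i hi => ?_, h3.2⟩
  have h4 := h3.1 i hi
  rw [Bool.and_eq_true, decide_eq_true_eq, Bool.not_eq_true', beq_eq_false_iff_ne] at h4
  exact h4

theorem ty_refl {r : ℕ} (hr : r ∈ sh) {i : ℕ} (hi : i < 4) (hi0 : i ≠ 0) : ty (refl i r) = ty r := by
  have h1 : (sh.all fun r => (List.range 4).all fun i => i == 0 || ty (refl i r) == ty r) = true := by decide +kernel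
  have h2 := all_of (List.all_eq_true.1 h1 r hr) hi
  rw [Bool.or_eq_true, beq_iff_eq, beq_iff_eq] at h2
  exact h2.resolve_left hi0

/-- the type of a point -/
noncomputable def typ (z : X) : Fin 5 := ty (cl z)

theorem cl_U {u : LL} (hu : u ∈ U) (z : X) : cl (u • z) = cl z := by
  refine cl_eq (cl_mem z) ?_
  exact (cl_UO z).trans ⟨u, hu, rfl⟩

/-- the image of a point under `n i` -/
theorem cl_n {i : ℕ} (hi : i < 4) (z : X) : (AO i (cl z) z.1 ∧ cl (n i • z) = refl i (cl z)) ∨
    (ge (cl z) (sp i) = false ∧ BO i (cl z) z.1 ∧ cl (n i • z) = cl z) := by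
  have hr := cl_mem z
  by_cases hge : ge (cl z) (sp i) = true
  · have h1 := AO_of_UO hi (sh_lt hr) hge (cl_UO z)
    exact Or.inl ⟨h1, cl_eq (refl_mem hi hr) (UO_of_AO hi (AO_n hi (sh_lt hr) h1))⟩
  · rw [Bool.not_eq_true] at hge
    rcases UO_split hi (cl_UO z) with h1 | h1
    · exact Or.inl ⟨h1, cl_eq (refl_mem hi hr) (UO_of_AO hi (AO_n hi (sh_lt hr) h1))⟩
    · exact Or.inr ⟨hge, h1, cl_eq hr (UO_of_BO hi (BO_n hi (sh_lt hr) (desc hr hi hge).2.1 h1))⟩

theorem typ_n {i : ℕ} (hi : i < 4) (hi0 : i ≠ 0) (z : X) : typ (n i • z) = typ z := by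
  unfold typ
  rcases cl_n hi z with ⟨-, h⟩ | ⟨-, -, h⟩
  · rw [h, ty_refl (cl_mem z) hi hi0]
  · rw [h]

/-- the elements preserving the types -/
def HT : Subgroup LL where
  carrier := {g | ∀ z : X, typ (g • z) = typ z}
  one_mem' := fun z => by rw [one_smul]
  mul_mem' := fun {g h} hg hh z => by rw [mul_smul, hg, hh]
  inv_mem' := fun {g} hg z => by rw [← hg (g⁻¹ • z), smul_inv_smul]

theorem mem_Ps_iff {g : LL} : g ∈ Ps ↔ g * x 44 = x 44 * g := by
  rw [← cent_short, Subgroup.mem_centralizer_singleton_iff]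

theorem n0_not : n 0 ∉ Ps := by
  rw [mem_Ps_iff]
  intro h
  have h1 := n_conj (i := 0) (r := 44) (by omega) (by omega)
  rw [h, mul_inv_cancel_right] at h1
  have h2 := x_inj (by omega) (by decide) h1
  exact absurd h2 (by decide)

theorem Ps_le : Ps ≤ HT := by
  rw [parabolic_eq (H := Ps) U_le_Ps]
  refine sup_le (fun u hu z => ?_) ?_
  · unfold typ
    rw [cl_U hu]
  · rw [Subgroup.closure_le]
    rintro g ⟨i, hi, hn, rfl⟩
    refine fun z => typ_n hi (fun h => ?_) z
    subst h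
    exact n0_not hn

theorem n_mem_Ps {i : ℕ} (hi : i < 4) (hi0 : i ≠ 0) : n i ∈ Ps := by
  have h1 : ((List.range 4).all fun i => i == 0 || (psP (sp i) && psP (47 - sp i))) = true := by decide +kernel
  have h2 := all_of h1 hi
  rw [Bool.or_eq_true, beq_iff_eq, Bool.and_eq_true] at h2
  have h3 := h2.resolve_left hi0
  exact n_mem_RG hi h3.1 h3.2

theorem nw_mem_Ps : ∀ w : List ℕ, (∀ i ∈ w, i < 4 ∧ i ≠ 0) → nw w ∈ Ps := by
  intro w
  induction w with
  | nil => intro _; exact one_mem _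
  | cons i w ih =>
    intro h
    have e : nw (i :: w) = n i * nw w := by simp [nw]
    rw [e]
    exact mul_mem (n_mem_Ps (h i List.mem_cons_self).1 (h i List.mem_cons_self).2)
      (ih fun j hj => h j (List.mem_cons_of_mem _ hj))

/-- the base point -/
abbrev pa : X := pt (br 0) (br_mem 0)

/-- the representatives of the orbits -/
abbrev pb (i : Fin 5) : X := pt (br i) (br_mem i)

theorem coe_pa : (pa : X).1 = x 44 := rfl

theorem mem_stab {g : LL} : g • pa = pa ↔ g ∈ Ps := by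
  rw [mem_Ps_iff, Subtype.ext_iff, coe_smul, coe_pa, mul_inv_eq_iff_eq_mul]

theorem exists_Ps (z : X) : ∃ g ∈ Ps, g • pb (typ z) = z := by
  have hr := cl_mem z
  obtain ⟨w, hw, h1⟩ := exists_word hr
  obtain ⟨u, hu, h2⟩ := cl_UO z
  refine ⟨u * nw w, mul_mem (U_le_Ps hu) (nw_mem_Ps w hw), Subtype.ext ?_⟩
  show u * nw w * x (br (typ z)) * (u * nw w)⁻¹ = z.1
  have h3 := nw_conj (fun i hi => (hw i hi).1) (sh_lt (br_mem (typ z)))
  have h4 : Cfsg.Agent.FourTwo.BN.act w (br (typ z)) = cl z := h1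
  rw [h4] at h3
  rw [h2, ← h3]
  group

theorem typ_pb (i : Fin 5) : typ (pb i) = i := by
  unfold typ
  rw [cl_pt, ty_br]

theorem rel_iff {i : Fin 5} {z : X} : Rel LL pa (pb i) pa z ↔ typ z = i := by
  constructor
  · rintro ⟨g, h1, rfl⟩
    rw [Ps_le (mem_stab.1 h1), typ_pb]
  · rintro rfl
    obtain ⟨g, hg, h⟩ := exists_Ps z
    exact ⟨g, mem_stab.2 hg, h⟩

/-! ### counting -/

open scoped Classical in
theorem ncard_eq (Q : X → Prop) : {z : X | Q z}.ncard = ∑ r ∈ sh.toFinset, {z : X | cl z = r ∧ Q z}.ncard := by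
  have := Fintype.ofFinite X
  rw [Set.ncard_eq_toFinset_card', Finset.card_eq_sum_card_fiberwise (f := cl) (t := sh.toFinset)
    (fun z _ => by
      rw [Finset.mem_coe, List.mem_toFinset]
      exact cl_mem z)]
  refine Finset.sum_congr rfl fun r _ => ?_
  rw [Set.ncard_eq_toFinset_card']
  congr 1
  ext z
  simp only [Finset.mem_filter, Set.mem_toFinset, Set.mem_ofPred_eq]
  exact and_comm

theorem ncard_of_iff {Q : X → Prop} {Q' : LL → Prop} (h : ∀ z : X, Q z ↔ Q' z.1)
    (h' : ∀ g, Q' g → ∃ y : LL, g = y * x 44 * y⁻¹) : {z : X | Q z}.ncard = Nat.card {g // Q' g} := by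
  rw [← Nat.card_coe_set_eq]
  refine Nat.card_congr
    { toFun := fun z => ⟨z.1.1, (h z.1).1 z.2⟩
      invFun := fun g => ⟨⟨g.1, h' g.1 g.2⟩, (h _).2 g.2⟩
      left_inv := fun z => rfl
      right_inv := fun g => rfl }

theorem card_cl {r : ℕ} (hr : r ∈ sh) : {z : X | cl z = r}.ncard = 2 ^ l r := by
  rw [← card_UO hr]
  exact ncard_of_iff (fun z => cl_iff hr) fun g => mem_X_of_UO hr

theorem card_A {r : ℕ} (hr : r ∈ sh) {i : ℕ} (hi : i < 4) (hge : ge r (sp i) = false) :
    {z : X | AO i r z.1}.ncard = 2 ^ (l r - 1) := by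
  rw [← card_AO hi hr hge]
  exact ncard_of_iff (fun z => Iff.rfl) fun g h => mem_X_of_UO hr (UO_of_AO hi h)

theorem card_B {r : ℕ} (hr : r ∈ sh) {i : ℕ} (hi : i < 4) (hge : ge r (sp i) = false) :
    {z : X | BO i r z.1}.ncard = 2 ^ (l r - 1) := by
  rw [← card_BO hi hr hge]
  exact ncard_of_iff (fun z => Iff.rfl) fun g h => mem_X_of_UO hr (UO_of_BO hi h)

/-- the sizes of the orbits -/
def kk : Fin 5 → ℕ := ![1, 270, 2016, 34560, 32768]

theorem sum_kk : ∀ i : Fin 5, (∑ r ∈ sh.toFinset, if ty r = i then 2 ^ l r else 0) = kk i := by decide +kernel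

theorem card_typ (i : Fin 5) : {z : X | typ z = i}.ncard = kk i := by
  rw [ncard_eq]
  have h1 : ∀ r ∈ sh.toFinset, {z : X | cl z = r ∧ typ z = i}.ncard = if ty r = i then 2 ^ l r else 0 := by
    intro r hr
    rw [List.mem_toFinset] at hr
    split_ifs with h
    · rw [← card_cl hr]
      congr 1
      ext z
      simp only [Set.mem_ofPred_eq]
      constructor
      · exact fun h1 => h1.1
      · intro h1
        exact ⟨h1, by unfold typ; rw [h1, h]⟩
    · rw [Set.ncard_eq_zero]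
      ext z
      simp only [Set.mem_ofPred_eq, Set.mem_empty_iff_false, iff_false, not_and]
      intro h1 h2
      unfold typ at h2
      rw [h1] at h2
      exact h h2
  rw [Finset.sum_congr rfl h1]
  exact sum_kk i

theorem sum_l : ∑ r ∈ sh.toFinset, 2 ^ l r = 69615 := by decide +kernel

theorem card_X : Nat.card X = 69615 := by
  have h1 := ncard_eq (fun _ => True)
  have h2 : {z : X | True}.ncard = Nat.card X := by
    rw [← Set.ncard_univ]
    rfl
  rw [← h2, h1]
  have h3 : ∀ r ∈ sh.toFinset, {z : X | cl z = r ∧ True}.ncard = 2 ^ l r := by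
    intro r hr
    rw [List.mem_toFinset] at hr
    simp only [and_true]
    exact card_cl hr
  rw [Finset.sum_congr rfl h3]
  exact sum_l

/-- **the subdegrees** -/
theorem sub : Sub LL X pa pb kk where
  trans := ⟨fun z z' => by
    obtain ⟨y, hy⟩ := z.2
    obtain ⟨y', hy'⟩ := z'.2
    refine ⟨y' * y⁻¹, Subtype.ext ?_⟩
    show y' * y⁻¹ * z.1 * (y' * y⁻¹)⁻¹ = z'.1
    rw [hy, hy']
    group⟩
  card := fun i => by
    rw [← card_typ i]
    congr 1
    ext z
    rw [Set.mem_ofPred_eq, ← rel_iff]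
    constructor
    · rintro ⟨⟨g, hg⟩, rfl⟩
      exact ⟨g, hg, rfl⟩
    · rintro ⟨g, h1, h2⟩
      exact ⟨⟨g, h1⟩, h2⟩
  inj := by decide
  sum := by rw [card_X]; decide

/-! ### the action of `n 0` -/

/-- the contribution of the root `r` to the number of points mapped by `n 0` to points of type `j` -/
def mr (r : ℕ) (j : Fin 5) : ℕ :=
  if ge r (sp 0) then (if ty (refl 0 r) = j then 2 ^ l r else 0)
  else (if ty (refl 0 r) = j then 2 ^ (l r - 1) else 0) + (if ty r = j then 2 ^ (l r - 1) else 0)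

theorem card_mr {r : ℕ} (hr : r ∈ sh) (j : Fin 5) : {z : X | cl z = r ∧ typ (n 0 • z) = j}.ncard = mr r j := by
  unfold mr
  by_cases hge : ge r (sp 0) = true
  · rw [if_pos hge]
    have h1 : ∀ z : X, cl z = r → typ (n 0 • z) = ty (refl 0 r) := by
      intro z hz
      unfold typ
      rcases cl_n (i := 0) (by omega) z with ⟨-, h⟩ | ⟨h, -, -⟩
      · rw [h, hz]
      · rw [hz, hge] at h
        exact absurd h (by simp)
    split_ifs with h
    · rw [← card_cl hr]
      congr 1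
      ext z
      simp only [Set.mem_ofPred_eq]
      exact ⟨fun h2 => h2.1, fun h2 => ⟨h2, by rw [h1 z h2, h]⟩⟩
    · rw [Set.ncard_eq_zero]
      ext z
      simp only [Set.mem_ofPred_eq, Set.mem_empty_iff_false, iff_false, not_and]
      intro h2 h3
      rw [h1 z h2] at h3
      exact h h3
  · rw [if_neg hge]
    rw [Bool.not_eq_true] at hge
    have hA : ∀ z : X, AO 0 r z.1 → cl z = r ∧ cl (n 0 • z) = refl 0 r := by
      intro z hz
      have h1 := cl_eq hr (UO_of_AO (i := 0) (by omega) hz)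
      exact ⟨h1, cl_eq (refl_mem (by omega) hr) (UO_of_AO (i := 0) (by omega) (AO_n (by omega) (sh_lt hr) hz))⟩
    have hB : ∀ z : X, BO 0 r z.1 → cl z = r ∧ cl (n 0 • z) = r := by
      intro z hz
      have h1 := cl_eq hr (UO_of_BO (i := 0) (by omega) hz)
      exact ⟨h1, cl_eq hr (UO_of_BO (i := 0) (by omega) (BO_n (by omega) (sh_lt hr) (desc hr (by omega) hge).2.1 hz))⟩
    have hAB : {z : X | cl z = r ∧ typ (n 0 • z) = j} =
        {z : X | AO 0 r z.1 ∧ ty (refl 0 r) = j} ∪ {z : X | BO 0 r z.1 ∧ ty r = j} := by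
      ext z
      simp only [Set.mem_ofPred_eq, Set.mem_union]
      constructor
      · rintro ⟨h1, h2⟩
        rcases UO_split (i := 0) (by omega) ((cl_iff hr).1 h1) with h3 | h3
        · refine Or.inl ⟨h3, ?_⟩
          unfold typ at h2
          rw [← (hA z h3).2]
          exact h2
        · refine Or.inr ⟨h3, ?_⟩
          unfold typ at h2
          rwa [(hB z h3).2] at h2
      · rintro (⟨h1, h2⟩ | ⟨h1, h2⟩)
        · refine ⟨(hA z h1).1, ?_⟩
          unfold typ
          rw [(hA z h1).2, h2]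
        · refine ⟨(hB z h1).1, ?_⟩
          unfold typ
          rw [(hB z h1).2, h2]
    rw [hAB, Set.ncard_union_eq]
    · congr 1
      · split_ifs with h
        · rw [← card_A hr (i := 0) (by omega) hge]
          simp only [h, and_true]
        · simp [h]
      · split_ifs with h
        · rw [← card_B hr (i := 0) (by omega) hge]
          simp only [h, and_true]
        · simp [h]
    · rw [Set.disjoint_left]
      rintro z ⟨h1, -⟩ ⟨h2, -⟩
      exact AO_BO_disj (by omega) hr hge h1 h2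

/-- the matrix of the numbers -/
def mm : Fin 5 → Fin 5 → ℕ := ![![0, 1, 0, 0, 0], ![1, 29, 112, 128, 0], ![0, 112, 112, 1792, 0],
  ![0, 128, 1792, 16256, 16384], ![0, 0, 0, 16384, 16384]]

theorem sum_mm : ∀ i j : Fin 5, (∑ r ∈ sh.toFinset, if ty r = i then mr r j else 0) = mm i j := by decide +kernel

theorem card_m (i j : Fin 5) : {z : X | typ z = i ∧ typ (n 0 • z) = j}.ncard = mm i j := by
  rw [ncard_eq]
  have h1 : ∀ r ∈ sh.toFinset, {z : X | cl z = r ∧ typ z = i ∧ typ (n 0 • z) = j}.ncard =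
      if ty r = i then mr r j else 0 := by
    intro r hr
    rw [List.mem_toFinset] at hr
    split_ifs with h
    · rw [← card_mr hr j]
      congr 1
      ext z
      simp only [Set.mem_ofPred_eq]
      constructor
      · exact fun h1 => ⟨h1.1, h1.2.2⟩
      · intro h1
        exact ⟨h1.1, by unfold typ; rw [h1.1, h], h1.2⟩
    · rw [Set.ncard_eq_zero]
      ext z
      simp only [Set.mem_ofPred_eq, Set.mem_empty_iff_false, iff_false, not_and]
      intro h1 h2
      unfold typ at h2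
      rw [h1] at h2
      exact absurd h2 h
  rw [Finset.sum_congr rfl h1]
  exact sum_mm i j

end Cfsg.Agent.H622.PB.Sch
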